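import Cfsg.Agent.H569.DG.GenJOne
import Cfsg.Agent.H440.TwoGen.JThree

/-!
# `J3` is generated by an involution and an element (helper569, for S4180)

`3·J3 = ⟨C, B D⟩` with `C = C_1` and `B D = B_{1+i} D_i`.
-/

set_option autoImplicit false
set_option maxRecDepth 100000

namespace Cfsg.Agent.H569.DG

namespace JThree

open Cfsg.Spor Cfsg.Agent.J3.Core Cfsg.Agent.J3.Tab Cfsg.Agent.J3.Mono Cfsg.Agent.J3.Elts
open Cfsg.Agent.Lib.BitSet Cfsg.Agent.J3.Order Cfsg.Agent.J3.Nineteen Cfsg.Agent.J3.Simple Matrix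

/-- table of `Q = B D` -/
def tQ : List ℕ := compT (tB u0) (tD j)
/-- table of `Q⁻¹` -/
def tQ' : List ℕ := powT tQ 7

/-- tables of the letters `C, Q, Q⁻¹` -/
def tl : ℕ → List ℕ
  | 0 => tC
  | 1 => tQ
  | _ => tQ'

/-- table of a word -/
def evT : List ℕ → List ℕ
  | [] => tS 0
  | l :: w => compT (tl l) (evT w)

/-- word for `B` -/
def wb : List ℕ := [2, 2, 0, 2, 0, 2, 2, 0, 2, 2, 2, 0, 2, 0, 2, 0, 1, 0, 1, 0, 1, 1, 0, 2, 2, 2]
/-- word for `D` -/
def wd : List ℕ := [2, 0, 1, 1, 0, 1, 1, 1, 0, 2, 2, 2, 0, 1, 0, 1, 0, 1, 0, 1, 1, 0, 1, 1, 0, 2]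

theorem chk_b : beqL (cols (evT wb)) (cols (tB u0)) = true := by decide +kernel
theorem chk_d : beqL (cols (evT wd)) (cols (tD j)) = true := by decide +kernel
theorem chk_c2 : beqL (cols (evT [0, 0])) (cols (tS 0)) = true := by decide +kernel

section
variable {F : Type*} [Field F] {ω : F}

/-- the letters as group elements -/
def xl (G : Gens F ω) : ℕ → threeJ3 F ω
  | 0 => G.c
  | 1 => G.b u0 * G.d j
  | _ => (G.b u0 * G.d j) ^ 7

theorem rep_l (H : Good ω) (G : Gens F ω) (l : ℕ) : RepG ω (tl l) (xl G l) := by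
  have h0 : RepG ω tC G.c := rC G H
  have h2 : RepG ω tQ (G.b u0 * G.d j) := (rB G H u0 u0_ne).mul (rD G H j)
  match l with
  | 0 => exact h0
  | 1 => exact h2
  | n + 2 => exact h2.pow H 7

theorem rep_w (H : Good ω) (G : Gens F ω) (w : List ℕ) : RepG ω (evT w) (w.map (xl G)).prod := by
  induction w with
  | nil => exact repG_one H
  | cons l w ih =>
    rw [List.map_cons, List.prod_cons]
    exact (rep_l H G l).mul ih

theorem mem_w (G : Gens F ω) {N : Subgroup (threeJ3 F ω)} (hP : G.c ∈ N) (hQ : G.b u0 * G.d j ∈ N)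
    (w : List ℕ) : (w.map (xl G)).prod ∈ N := by
  apply Subgroup.list_prod_mem
  intro y hy
  obtain ⟨l, -, rfl⟩ := List.mem_map.1 hy
  match l with
  | 0 => exact hP
  | 1 => exact hQ
  | n + 2 => exact N.pow_mem hQ 7

theorem closure_eq (H : Good ω) (G : Gens F ω) :
    Subgroup.closure ({G.c, G.b u0 * G.d j} : Set (threeJ3 F ω)) = ⊤ := by
  set N := Subgroup.closure ({G.c, G.b u0 * G.d j} : Set (threeJ3 F ω)) with hN
  have hP : G.c ∈ N := Subgroup.subset_closure (by simp)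
  have hQ : G.b u0 * G.d j ∈ N := Subgroup.subset_closure (by simp)
  have hb : G.b u0 ∈ N := by
    rw [← (rep_w H G wb).ext (rB G H u0 u0_ne) (beqL_eq chk_b)]
    exact mem_w G hP hQ wb
  have hd : G.d j ∈ N := by
    rw [← (rep_w H G wd).ext (rD G H j) (beqL_eq chk_d)]
    exact mem_w G hP hQ wd
  rw [eq_top_iff, ← H440.TwoGen.JThree.closure_eq H G, Subgroup.closure_le]
  rintro _ (rfl | rfl)
  · exact hb
  · exact N.mul_mem hP hd

theorem c_sq (H : Good ω) (G : Gens F ω) : G.c ^ 2 = 1 := by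
  have h := (rep_w H G [0, 0]).ext (repG_one H) (beqL_eq chk_c2)
  rw [pow_two]
  simpa [xl] using h

end

end JThree

theorem isMulCommutative_of_closure_singleton {G : Type*} [Group G] {b : G}
    (h : Subgroup.closure ({b} : Set G) = ⊤) : IsMulCommutative G := by
  have : IsCyclic G := ⟨b, fun x => by
    have h1 : x ∈ Subgroup.zpowers b := by
      rw [Subgroup.zpowers_eq_closure, h]; exact Subgroup.mem_top x
    exact h1⟩
  exact IsCyclic.isMulCommutative

theorem notComm_j3 {T : Type*} [Group T] [Finite T] [IsSimpleGroup T] (h : Cfsg.Spor.IsoJ3 T) :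
    ¬ IsMulCommutative T := by
  obtain ⟨F, _, _, ω, hF, hω, ⟨e⟩⟩ := h
  have H := Cfsg.Agent.J3.Core.good_of_card hF hω
  exact not_comm_of_card (n := 50232960) ((Nat.card_congr e.toEquiv).trans (Cfsg.Agent.J3.Simple.card_J3 hF H))
    (by norm_num)

/-- **`J3` is generated by an involution and another element.** -/
theorem invGen_j3 {T : Type*} [Group T] [Finite T] [IsSimpleGroup T] (h : Cfsg.Spor.IsoJ3 T) : InvGen T := by
  have hna := notComm_j3 h
  obtain ⟨F, _, _, ω, hF, hω, ⟨e⟩⟩ := h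
  have H := Cfsg.Agent.J3.Core.good_of_card hF hω
  obtain ⟨Gn⟩ := Cfsg.Agent.J3.Elts.exists_gens hF H
  let f : Cfsg.Spor.threeJ3 F ω →* T := (e.symm : Cfsg.Spor.J3 F ω →* T).comp (QuotientGroup.mk' _)
  have hf : Function.Surjective f := e.symm.surjective.comp (QuotientGroup.mk'_surjective _)
  refine InvGen.of_surj f hf (JThree.c_sq H Gn) ?_ (JThree.closure_eq H Gn)
  intro h1
  apply hna
  have h2 := MonoidHom.map_closure f ({Gn.c, Gn.b Cfsg.Agent.J3.Order.u0 * Gn.d Cfsg.Agent.J3.Nineteen.j} : Set _)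
  rw [JThree.closure_eq H Gn, Set.image_pair, ← MonoidHom.range_eq_map, MonoidHom.range_eq_top.mpr hf, h1,
    Subgroup.closure_insert_one] at h2
  exact isMulCommutative_of_closure_singleton h2.symm

end Cfsg.Agent.H569.DG
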