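import Cfsg.Agent.H569.DG.GenJOne
import Cfsg.Agent.H994.TwoGen.Words
import Cfsg.Agent.J2.HundredGens
import Cfsg.Agent.S1619

/-!
# `J2` is generated by an involution and an element (helper569, for S4180)
-/

set_option autoImplicit false

namespace Cfsg.Agent.H569.DG

open Cfsg Cfsg.Agent.H994.TwoGen.Words Cfsg.Agent.J2.HundredGens Cfsg.Agent.SporadicA.J2Hundred

namespace JTwo

/-- the involution -/
def wX : List ℕ := [3]
/-- the second element, of order 10 -/
def wY : List ℕ := [4, 2, 1, 0]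
/-- its inverse -/
def wYi : List ℕ := [0, 1, 2, 4]

theorem chk_X : val gen (wX ++ wX) = 1 := pw_eq (L := wX ++ wX) (M := []) (by decide +kernel)
theorem chk_Y : val gen (wY ++ wYi) = 1 := pw_eq (L := wY ++ wYi) (M := []) (by decide +kernel)

/-- the group generated by the two elements -/
def H : Subgroup (Equiv.Perm (Fin 100)) := Subgroup.closure {val gen wX, val gen wY}

theorem mem {w : List ℕ} {k : ℕ} (h : chk (expand wX wY wX wYi w ++ [k]) [] = true) : gen k ∈ H :=
  mem_of_word gen chk_X chk_Y (pw_eq h)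

theorem mem_0 : gen 0 ∈ H := mem (w := [1, 0, 3, 0, 1, 0, 3, 0, 1, 0, 3, 0]) (by decide +kernel)
theorem mem_1 : gen 1 ∈ H := mem (w := [3, 3, 0, 1, 1, 0, 3, 3, 0, 1, 1, 0]) (by decide +kernel)
theorem mem_2 : gen 2 ∈ H := mem (w := [3, 3, 3, 0, 1, 1, 0, 3, 3, 0, 1, 1, 0, 1]) (by decide +kernel)
theorem mem_3 : gen 3 ∈ H := mem (w := [0]) (by decide +kernel)
theorem mem_4 : gen 4 ∈ H := mem (w := [1, 1, 1, 1, 1]) (by decide +kernel)

theorem G_le : G ≤ H := by
  rw [G, Subgroup.closure_le]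
  rintro _ (rfl | rfl | rfl | rfl | rfl)
  · exact mem_0
  · exact mem_1
  · exact mem_2
  · exact mem_3
  · exact mem_4

theorem H_le : H ≤ G := by
  rw [H, Subgroup.closure_le]
  rintro _ (rfl | rfl)
  · exact pw_mem wX
  · exact pw_mem wY

theorem H_eq : Subgroup.closure ({val gen wX, val gen wY} : Set (Equiv.Perm (Fin 100))) = G :=
  le_antisymm H_le G_le

theorem sq : val gen wX ^ 2 = 1 := by
  rw [pow_two, ← val_append]
  exact chk_X

theorem ne : val gen wX ≠ 1 := by
  intro h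
  have h1 : ((pw wX (0 : Fin 100) : Fin 100) : ℕ) = run wX 0 := pw_val wX 0
  have h2 : pw wX = 1 := h
  rw [h2] at h1
  revert h1
  decide +kernel

end JTwo

/-- **`J2` is generated by an involution and another element.** -/
theorem invGen_j2 {T : Type*} [Group T] (h : Cfsg.Spor.IsoJ2 T) : InvGen T := by
  obtain ⟨e⟩ := h
  obtain ⟨f⟩ := J2_iso Cfsg.Agent.S1619.result.2.2.2
  exact (InvGen.of_closure JTwo.sq JTwo.ne JTwo.H_eq).congr (e.trans f)

theorem notComm_j2 {T : Type*} [Group T] [Finite T] [IsSimpleGroup T] (h : Cfsg.Spor.IsoJ2 T) :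
    ¬ IsMulCommutative T := by
  obtain ⟨e⟩ := h
  exact not_comm_of_card (n := 604800) ((Nat.card_congr e.toEquiv).trans Cfsg.Agent.S1619.result.2.2.2) (by norm_num)

end Cfsg.Agent.H569.DG
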