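import Cfsg.Agent.H891.DG.Tools
import Cfsg.Agent.H569.DG.GenJOne
import Cfsg.Agent.H569.DG.GenJTwo
import Cfsg.Agent.H569.DG.GenJThree

/-!
# `Coh` for the Janko groups `J1`, `J2`, `J3` (helper569, for S4180)
-/

set_option autoImplicit false

namespace Cfsg.Agent.H569.DG

open Cfsg.Agent.H891.DG

universe u

variable {T : Type u} [Group T] [Finite T] [IsSimpleGroup T]

theorem coh_of_invGen (hna : ¬ IsMulCommutative T) (h : InvGen T) : Coh T := by
  obtain ⟨c, b, hc, hc1, h⟩ := h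
  exact Tools.coh_of_involution hna hc hc1 h

theorem coh_j1 (h : Cfsg.Spor.IsoJ1 T) : Coh T := coh_of_invGen (notComm_j1 h) (invGen_j1 h)

theorem coh_j2 (h : Cfsg.Spor.IsoJ2 T) : Coh T := coh_of_invGen (notComm_j2 h) (invGen_j2 h)

theorem coh_j3 (h : Cfsg.Spor.IsoJ3 T) : Coh T := coh_of_invGen (notComm_j3 h) (invGen_j3 h)

end Cfsg.Agent.H569.DG
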